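/-
Proportions of solutions of `x ^ t = 1` in a finite group: lower bounds from the numbers of elements of given order,
and passage to a non-abelian simple section.
-/
import Cfsg.Agent.Inv.IsoP4
import Cfsg.Agent.Fgs.FrobSol

set_option autoImplicit false

open Subgroup

namespace CL.TBW.Nse

universe u

/-- The number of solutions of `x ^ t = 1`. -/
noncomputable def xc (G : Type*) [Group G] (t : ℕ) : ℕ := Nat.card {x : G // x ^ t = 1}

/-- All prime divisors are at least seven. -/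
def Big (t : ℕ) : Prop := ∀ r : ℕ, r.Prime → r ∣ t → 7 ≤ r

variable {G : Type*} [Group G] [Finite G]

theorem Big.odd {t : ℕ} (h : Big t) : Odd t := by
  by_contra h2
  have := h 2 Nat.prime_two (even_iff_two_dvd.1 (Nat.not_odd_iff_even.1 h2))
  omega

theorem Big.ne_zero {t : ℕ} (h : Big t) : t ≠ 0 := by
  rintro rfl
  have := h 2 Nat.prime_two (dvd_zero 2)
  omega

theorem Big.of_dvd {t d : ℕ} (h : Big t) (hd : d ∣ t) : Big d := fun r hr h1 => h r hr (h1.trans hd)

theorem Big.eq_one_or {t : ℕ} (h : Big t) : t = 1 ∨ 7 ≤ t := by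
  by_cases h1 : t = 1
  · exact Or.inl h1
  · obtain ⟨r, hr, h2⟩ := Nat.exists_prime_and_dvd h1
    exact Or.inr ((h r hr h2).trans (Nat.le_of_dvd (Nat.pos_of_ne_zero h.ne_zero) h2))

theorem Big.coprime {t n : ℕ} (h : Big t) (h0 : 0 < n) (hn : n < 7) : Nat.Coprime t n := by
  refine Nat.coprime_of_dvd fun r hr h1 h2 => ?_
  have := h r hr h1
  have := Nat.le_of_dvd h0 h2
  omega

theorem lower {t c : ℕ} (ht : Odd t) (hd : t ∣ Nat.card G) (hc : c ≡ 1 [MOD t])
    (hv : ∀ d, Odd (Nat.card {g : G // orderOf g = d}) ∨ t ∣ Nat.card {g : G // orderOf g = d} ∨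
      c ∣ Nat.card {g : G // orderOf g = d}) : 1 + (t - 1) * c ≤ xc G t := by
  classical
  have ht0 : t ≠ 0 := by rintro rfl; exact absurd ht (by decide)
  have key : ∀ s : Finset ℕ, (∀ d ∈ s, 2 < d) →
      ∃ k v, ∑ d ∈ s, Nat.card {g : G // orderOf g = d} = c * k + t * v := by
    intro s
    induction s using Finset.induction_on with
    | empty => exact fun _ => ⟨0, 0, by simp⟩
    | insert a s ha ih =>
      intro h
      obtain ⟨k, v, e⟩ := ih fun d hd => h d (Finset.mem_insert_of_mem hd)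
      rw [Finset.sum_insert ha, e]
      rcases hv a with h1 | ⟨w, h1⟩ | ⟨w, h1⟩
      · exact absurd (CL.Inv.even_card_orderOf (h a (Finset.mem_insert_self _ _))) (Nat.not_even_iff_odd.2 h1)
      · exact ⟨k, v + w, by rw [h1]; ring⟩
      · exact ⟨k + w, v, by rw [h1]; ring⟩
  obtain ⟨k, v, e⟩ := key (t.divisors.erase 1) fun d hd => by
    obtain ⟨h1, h2⟩ := Finset.mem_erase.1 hd
    have h3 := Nat.dvd_of_mem_divisors h2
    have h4 := Odd.of_dvd_nat ht h3
    obtain ⟨j, rfl⟩ := h4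
    omega
  have e2 : xc G t = 1 + (c * k + t * v) := by
    rw [xc, ← CL.Inv.sum_card_orderOf ht0, ← Finset.add_sum_erase _ _ (Nat.one_mem_divisors.2 ht0), e,
      CL.Inv.card_orderOf_zero_one]
  have h1 : t ∣ xc G t := CL.Fgs.dvd_card_pow_eq_one hd
  have h2 : t ∣ 1 + k := by
    rw [e2, ← add_assoc] at h1
    have h3 : t ∣ 1 + c * k := (Nat.dvd_add_left (dvd_mul_right t v)).1 h1
    have h4 : 1 + c * k ≡ 1 + 1 * k [MOD t] := (hc.mul_right k).add_left 1
    rw [one_mul] at h4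
    exact (Nat.modEq_zero_iff_dvd).1 (h4.symm.trans ((Nat.modEq_zero_iff_dvd).2 h3))
  have h5 : t - 1 ≤ k := by
    have := Nat.le_of_dvd (by omega) h2
    omega
  have := Nat.mul_le_mul_right c h5
  rw [e2, mul_comm c k]
  omega

omit [Finite G] in
theorem xc_congr {H : Type*} [Group H] (e : G ≃* H) (t : ℕ) : xc G t = xc H t :=
  Nat.card_congr (e.toEquiv.subtypeEquiv fun x => by
    change _ ↔ e x ^ t = 1
    rw [← map_pow, e.map_eq_one_iff])

theorem xc_quot (M : Subgroup G) [M.Normal] (t : ℕ) : xc G t ≤ xc (G ⧸ M) t * Nat.card M := by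
  rw [xc, xc, ← Nat.card_prod]
  let f : {x : G // x ^ t = 1} → {y : G ⧸ M // y ^ t = 1} × M := fun x =>
    (⟨(x.1 : G ⧸ M), by rw [← QuotientGroup.mk_pow, x.2, QuotientGroup.mk_one]⟩,
      ⟨((x.1 : G ⧸ M).out)⁻¹ * x.1, QuotientGroup.eq.1 (QuotientGroup.out_eq' _)⟩)
  refine Nat.card_le_card_of_injective f fun x y h => ?_
  have h1 : (x.1 : G ⧸ M) = y.1 := congrArg (fun z => z.1.1) h
  have h2 : ((x.1 : G ⧸ M).out)⁻¹ * x.1 = ((y.1 : G ⧸ M).out)⁻¹ * y.1 := congrArg (fun z => z.2.1) h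
  rw [h1] at h2
  exact Subtype.ext (mul_left_cancel h2)

theorem xc_sub (K : Subgroup G) {t : ℕ} (h : ∀ x : G, x ^ t = 1 → x ∈ K) : xc G t ≤ xc K t := by
  let f : {x : G // x ^ t = 1} → {y : K // y ^ t = 1} := fun x => ⟨⟨x.1, h x.1 x.2⟩, Subtype.ext x.2⟩
  exact Nat.card_le_card_of_injective f fun x y e => Subtype.ext (congrArg (fun z => z.1.1) e)

theorem xc_le_card (t : ℕ) : xc G t ≤ Nat.card G := Nat.card_le_card_of_injective _ Subtype.val_injective

theorem xc_mono {t s : ℕ} (h : ∀ x : G, x ^ t = 1 → x ^ s = 1) : xc G t ≤ xc G s :=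
  Nat.card_le_card_of_injective (fun x : {x : G // x ^ t = 1} => (⟨x.1, h x.1 x.2⟩ : {x : G // x ^ s = 1}))
    fun _ _ e => Subtype.ext (congrArg (fun z : {x : G // x ^ s = 1} => z.1) e)

omit [Finite G] in
theorem xc_one : xc G 1 = 1 := by simp [xc]

/-- A proportion above `1 / 7` gives a common prime divisor. -/
theorem exists_prime {t : ℕ} (h7 : 7 ≤ Nat.card G) (h : Nat.card G < 7 * xc G t) :
    ∃ r : ℕ, r.Prime ∧ r ∣ t ∧ r ∣ Nat.card G := by
  by_contra h1
  have hc : Nat.Coprime t (Nat.card G) := Nat.coprime_of_dvd fun r hr h2 h3 => h1 ⟨r, hr, h2, h3⟩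
  have : xc G t ≤ xc G 1 := xc_mono fun x hx => by
    rw [← hc.gcd_eq_one]
    exact pow_gcd_eq_one.2 ⟨hx, pow_card_eq_one'⟩
  rw [xc_one] at this
  omega

/-- The subgroup generated by the solutions of `x ^ t = 1`. -/
def gen (G : Type*) [Group G] (t : ℕ) : Subgroup G := closure {x | x ^ t = 1}

omit [Finite G] in
theorem gen_normal (t : ℕ) : (gen G t).Normal := ⟨fun x hx g => by
  induction hx using closure_induction with
  | mem y hy =>
    refine subset_closure ?_
    change (g * y * g⁻¹) ^ t = 1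
    rw [conj_pow, hy, mul_one, mul_inv_cancel]
  | one => simpa using (gen G t).one_mem
  | mul y z _ _ h1 h2 => simpa [mul_assoc] using (gen G t).mul_mem h1 h2
  | inv y _ h1 => simpa [mul_assoc] using (gen G t).inv_mem h1⟩

theorem mem_gen {t s : ℕ} (h : Nat.card G < 7 * xc G t) (hs : Big s) {x : G} (hx : x ^ s = 1) : x ∈ gen G t := by
  have := gen_normal (G := G) t
  have h1 : xc G t ≤ Nat.card (gen G t) := (xc_sub _ fun y hy => subset_closure hy).trans (xc_le_card t)
  have h2 := (gen G t).index_mul_card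
  have h3 : (gen G t).index < 7 := by
    by_contra h4
    have := Nat.mul_le_mul_right (Nat.card (gen G t)) (not_lt.1 h4)
    omega
  have h4 := hs.coprime (Nat.pos_of_ne_zero index_ne_zero_of_finite) h3
  have h5 : (x : G ⧸ gen G t) ^ s = 1 := by rw [← QuotientGroup.mk_pow, hx, QuotientGroup.mk_one]
  have h6 : (x : G ⧸ gen G t) ^ (gen G t).index = 1 := pow_card_eq_one'
  have h7 := pow_gcd_eq_one.2 ⟨h5, h6⟩
  rw [h4.gcd_eq_one, pow_one] at h7
  exact (QuotientGroup.eq_one_iff x).1 h7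

theorem exists_simple_quotient (G : Type*) [Group G] [Finite G] [Nontrivial G] :
    ∃ (N : Subgroup G) (_ : N.Normal), IsSimpleGroup (G ⧸ N) := by
  obtain ⟨N, ⟨hN, hN'⟩, hmax⟩ := Set.Finite.exists_maximal (Set.toFinite {N : Subgroup G | N.Normal ∧ N ≠ ⊤})
    ⟨⊥, inferInstance, bot_ne_top⟩
  have : Nontrivial (G ⧸ N) := by
    rw [QuotientGroup.nontrivial_iff]; exact hN'
  refine ⟨N, hN, ⟨fun K hK => ?_⟩⟩
  by_cases h : K.comap (QuotientGroup.mk' N) = ⊤
  · exact Or.inr (comap_injective (QuotientGroup.mk'_surjective N) (h.trans (comap_top _).symm))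
  · left
    have hle : N ≤ K.comap (QuotientGroup.mk' N) := fun x hx => by
      rw [mem_comap, QuotientGroup.mk'_apply, (QuotientGroup.eq_one_iff x).2 hx]; exact K.one_mem
    have := hmax ⟨hK.comap _, h⟩ hle
    rw [eq_bot_iff]
    intro y hy
    obtain ⟨x, rfl⟩ := QuotientGroup.mk'_surjective N y
    exact (QuotientGroup.eq_one_iff x).2 (this hy)

omit [Finite G] in
theorem pow_of_comm {K : Subgroup G} {L : Type*} [Group L] (f : K →* L) (hL : IsMulCommutative L) {t : ℕ}
    (hK : K = gen G t) (k : K) : f k ^ t = 1 := by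
  subst hK
  obtain ⟨x, hx⟩ := k
  induction hx using closure_induction with
  | mem y hy =>
    rw [← map_pow]
    exact (congrArg f (Subtype.ext (hy : y ^ t = 1) : (⟨y, subset_closure hy⟩ : gen G t) ^ t = 1)).trans f.map_one
  | one => exact (congrArg (fun z => f z ^ t) (Subtype.ext rfl : _ = (1 : gen G t))).trans (by simp)
  | mul y z h1 h2 i1 i2 =>
    have : f ⟨y * z, mul_mem h1 h2⟩ = f ⟨y, h1⟩ * f ⟨z, h2⟩ := f.map_mul ⟨y, h1⟩ ⟨z, h2⟩
    rw [this, Commute.mul_pow (hL.is_comm.comm _ _), i1, i2, one_mul]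
  | inv y h1 i1 =>
    have : f ⟨y⁻¹, inv_mem h1⟩ = (f ⟨y, h1⟩)⁻¹ := f.map_inv ⟨y, h1⟩
    rw [this, inv_pow, i1, inv_one]

/-- A non-abelian simple section in which the proportions do not drop. -/
theorem exists_section {G : Type u} [Group G] [Finite G] {t s : ℕ} (ht : Big t) (hs : Big s) (hc : Nat.Coprime t s)
    (h7 : 7 ≤ Nat.card G) (h1 : Nat.card G < 7 * xc G t) (h2 : Nat.card G < 7 * xc G s) :
    ∃ (L : Type u) (_ : Group L) (_ : Finite L), IsSimpleGroup L ∧ ¬ IsMulCommutative L ∧ Nat.card L ∣ Nat.card G ∧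
      (Nat.card G ≤ Nat.card L → Nonempty (G ≃* L)) ∧
      ∀ r, Big r → xc G r * Nat.card L ≤ xc L r * Nat.card G := by
  have e : gen G t = gen G s :=
    le_antisymm ((closure_le _).2 fun x hx => mem_gen h2 ht hx) ((closure_le _).2 fun x hx => mem_gen h1 hs hx)
  have h3 : xc G t ≤ Nat.card (gen G t) := (xc_sub _ fun y hy => subset_closure hy).trans (xc_le_card t)
  have : Nontrivial (gen G t) := Finite.one_lt_card_iff_nontrivial.1 (by omega)
  obtain ⟨M, hM, hL⟩ := exists_simple_quotient (gen G t)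
  have c1 := card_eq_card_quotient_mul_card_subgroup M
  have c2 := (gen G t).index_mul_card
  have p1 : 0 < Nat.card M := Nat.card_pos
  have p2 : 0 < Nat.card (gen G t ⧸ M) := Nat.card_pos
  have p3 : 0 < (gen G t).index := Nat.pos_of_ne_zero index_ne_zero_of_finite
  refine ⟨gen G t ⧸ M, inferInstance, inferInstance, hL, fun hcm => ?_, ?_, fun h => ?_, fun r hr => ?_⟩
  · obtain ⟨y, hy⟩ := exists_ne (1 : gen G t ⧸ M)
    obtain ⟨k, rfl⟩ := QuotientGroup.mk'_surjective M y
    have := pow_gcd_eq_one.2 ⟨pow_of_comm (QuotientGroup.mk' M) hcm rfl k, pow_of_comm (QuotientGroup.mk' M) hcm e k⟩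
    rw [hc.gcd_eq_one, pow_one] at this
    exact hy this
  · exact (Dvd.intro _ c1.symm).trans (card_subgroup_dvd_card _)
  · rw [← c2, c1, mul_comm, mul_assoc] at h
    have h4 : Nat.card M * (gen G t).index ≤ 1 := by
      by_contra h5
      have := Nat.mul_le_mul_left (Nat.card (gen G t ⧸ M)) (show 2 ≤ Nat.card M * (gen G t).index by omega)
      omega
    have h5 : Nat.card M = 1 := by nlinarith
    have h6 : (gen G t).index = 1 := by nlinarith
    have h7 : M = ⊥ := card_eq_one.1 h5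
    have h8 : gen G t = ⊤ := index_eq_one.1 h6
    exact ⟨(topEquiv.symm.trans (MulEquiv.subgroupCongr h8.symm)).trans
      (QuotientGroup.quotientBot.symm.trans (QuotientGroup.quotientMulEquivOfEq h7.symm))⟩
  · have h4 := (xc_sub (gen G t) fun x hx => mem_gen h1 hr hx).trans (xc_quot M r)
    have h5 : Nat.card (gen G t) ≤ Nat.card G := card_le_card_group _
    calc _ ≤ xc (gen G t ⧸ M) r * Nat.card M * Nat.card (gen G t ⧸ M) := Nat.mul_le_mul_right _ h4
      _ = xc (gen G t ⧸ M) r * Nat.card (gen G t) := by rw [c1]; ring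
      _ ≤ _ := Nat.mul_le_mul_left _ h5

end CL.TBW.Nse
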