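/-
Solutions of `x ^ t = 1` in `PSL₂(q)`: counting by traces.
-/
import Cfsg.Agent.TBW.NseA
import Cfsg.Agent.Cls.SL2Quat

set_option autoImplicit false

open Matrix Polynomial CL.SL2
open scoped MatrixGroups

namespace CL.TBW.Nse

variable {F : Type*} [Field F]

/-- The trace of an element of `SL₂`. -/
def tr (g : SL(2, F)) : F := (g : Matrix (Fin 2) (Fin 2) F).trace

theorem sq_eq (g : SL(2, F)) :
    (g : Matrix (Fin 2) (Fin 2) F) * g = tr g • (g : Matrix (Fin 2) (Fin 2) F) - 1 := by
  have hd := g.det_coe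
  rw [det_fin_two] at hd
  ext i j
  fin_cases i <;> fin_cases j <;> simp [tr, trace_fin_two, mul_apply, Fin.sum_univ_two] <;>
    first | ring1 | linear_combination -hd

theorem cpow (g : SL(2, F)) (n : ℕ) :
    ((g ^ n : SL(2, F)) : Matrix (Fin 2) (Fin 2) F) = (g : Matrix (Fin 2) (Fin 2) F) ^ n :=
  Matrix.SpecialLinearGroup.coe_pow g n

theorem tr_pow (g : SL(2, F)) (n : ℕ) : tr (g ^ n) = (dickson 1 (1 : F) n).eval (tr g) := by
  induction n using Nat.twoStepInduction with
  | zero => simp [tr]; norm_num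
  | one => simp
  | more n h1 h2 =>
    rw [dickson_add_two]
    simp only [eval_sub, eval_mul, eval_X, eval_C, one_mul]
    rw [← h1, ← h2]
    rw [tr, tr, tr, tr, cpow, cpow, cpow]
    rw [pow_add, sq, sq_eq, mul_sub, mul_one, mul_smul_comm, trace_sub, trace_smul, ← pow_succ]
    rfl

theorem dickson_deg (n : ℕ) : (dickson 1 (1 : F) n).natDegree ≤ n ∧ (dickson 1 (1 : F) (n + 1)).coeff (n + 1) = 1 := by
  induction n using Nat.twoStepInduction with
  | zero =>
    refine ⟨?_, by simp⟩
    rw [dickson_zero]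
    compute_degree
  | one =>
    refine ⟨by simp, ?_⟩
    rw [dickson_add_two, coeff_sub, coeff_X_mul, coeff_C_mul, coeff_eq_zero_of_natDegree_lt (p := dickson 1 (1 : F) 0)]
    · simp
    · rw [dickson_zero]
      refine lt_of_le_of_lt (?_ : _ ≤ 0) (by omega)
      compute_degree
  | more n h1 h2 =>
    constructor
    · rw [dickson_add_two]
      refine (natDegree_sub_le _ _).trans (max_le (natDegree_mul_le.trans ?_) ((natDegree_C_mul_le _ _).trans ?_))
      · have := h2.1
        have := natDegree_X_le (R := F)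
        omega
      · have := h1.1
        omega
    · rw [dickson_add_two, coeff_sub, coeff_X_mul, coeff_C_mul, h2.2,
        coeff_eq_zero_of_natDegree_lt (lt_of_le_of_lt h2.1 (by omega))]
      simp

/-- At most `k` traces other than `2` occur among the solutions of `g ^ (2 k + 1) = 1`. -/
theorem exists_traces (k : ℕ) :
    ∃ T : Finset F, T.card ≤ k ∧ ∀ g : SL(2, F), g ^ (2 * k + 1) = 1 → tr g = 2 ∨ tr g ∈ T := by
  classical
  let P : F[X] := dickson 1 (1 : F) (k + 1) - dickson 1 (1 : F) k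
  have h0 : P ≠ 0 := fun h => by
    have := congrArg (fun Q : F[X] => Q.coeff (k + 1)) h
    simp only [P, coeff_sub, (dickson_deg k).2,
      coeff_eq_zero_of_natDegree_lt (lt_of_le_of_lt (dickson_deg (F := F) k).1 (Nat.lt_succ_self k))] at this
    simp at this
  have h1 : P.natDegree ≤ k + 1 :=
    (natDegree_sub_le _ _).trans (max_le (dickson_deg _).1 ((dickson_deg _).1.trans (by omega)))
  have h2 : ∀ g : SL(2, F), g ^ (2 * k + 1) = 1 → tr g ∈ P.roots.toFinset := fun g hg => by
    rw [Multiset.mem_toFinset, mem_roots h0, IsRoot, eval_sub, ← tr_pow, ← tr_pow, sub_eq_zero]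
    have : g ^ (k + 1) = (g ^ k)⁻¹ := eq_inv_of_mul_eq_one_left (by rw [← pow_add, ← hg]; congr 1; ring)
    rw [this]
    exact trace_inv_sl _
  have h3 : (2 : F) ∈ P.roots.toFinset := by
    have := h2 1 (one_pow _)
    simpa [tr] using this
  refine ⟨P.roots.toFinset.erase 2, ?_, fun g hg => ?_⟩
  · rw [Finset.card_erase_of_mem h3]
    have := (Multiset.toFinset_card_le P.roots).trans ((card_roots' P).trans h1)
    omega
  · by_cases h : tr g = 2
    · exact Or.inl h
    · exact Or.inr (Finset.mem_erase.2 ⟨h, h2 g hg⟩)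

theorem tr_eq_two_iff (p : ℕ) [hp : Fact p.Prime] [CharP F p] (g : SL(2, F)) : tr g = 2 ↔ g ^ p = 1 := by
  have e : ((g : Matrix (Fin 2) (Fin 2) F) - 1) ^ p = (g : Matrix (Fin 2) (Fin 2) F) ^ p - 1 := by
    rw [sub_pow_char_of_commute _ (Commute.one_right _), one_pow]
  constructor
  · intro h
    have h2 : ((g : Matrix (Fin 2) (Fin 2) F) - 1) ^ 2 = 0 := by
      rw [sq, sub_mul, mul_sub, sq_eq, h, two_smul, mul_one, one_mul]
      abel
    have h3 := pow_eq_zero_of_le hp.out.two_le h2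
    rw [e, sub_eq_zero] at h3
    exact Subtype.ext (by simpa using h3)
  · intro h
    have h2 : IsNilpotent ((g : Matrix (Fin 2) (Fin 2) F) - 1) :=
      ⟨p, by rw [e, ← cpow, h]; simp⟩
    have h3 := (Matrix.isNilpotent_trace_of_isNilpotent h2).eq_zero
    rw [trace_sub, sub_eq_zero] at h3
    simpa [tr] using h3

variable [Fintype F]

theorem card_tr_le (τ : F) : Nat.card {g : SL(2, F) // tr g = τ} ≤ Fintype.card F ^ 2 + Fintype.card F := by
  classical
  have h2 : Nat.card {a : F // a * (τ - a) = 1} ≤ 2 := by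
    by_cases h : ∃ a, a * (τ - a) = 1
    · obtain ⟨a, ha⟩ := h
      refine le_trans (Nat.card_le_card_of_injective (fun x : {a : F // a * (τ - a) = 1} => decide (x.1 = a)) ?_)
        (by simp)
      intro x y e
      have k : ∀ z : {a : F // a * (τ - a) = 1}, z.1 ≠ a → z.1 = τ - a := fun z hz =>
        mul_left_cancel₀ (sub_ne_zero.2 hz) (by linear_combination ha - z.2)
      by_cases hx : x.1 = a
      · have hy : y.1 = a := by simpa [hx] using e
        exact Subtype.ext (hx.trans hy.symm)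
      · have hy : y.1 ≠ a := by simpa [hx] using e
        exact Subtype.ext ((k x hx).trans (k y hy).symm)
    · have : IsEmpty {a : F // a * (τ - a) = 1} := ⟨fun a => h ⟨a.1, a.2⟩⟩
      simp
  have hd : ∀ g : {g : SL(2, F) // tr g = τ}, g.1 1 1 = τ - g.1 0 0 ∧ g.1 0 0 * g.1 1 1 - g.1 0 1 * g.1 1 0 = 1 :=
    fun g => ⟨by
      have := g.2
      rw [tr, trace_fin_two] at this
      exact eq_sub_of_add_eq' this, by have := g.1.det_coe; rwa [det_fin_two] at this⟩
  let f : {g : SL(2, F) // tr g = τ} → (F × Fˣ) ⊕ ({a : F // a * (τ - a) = 1} × F) := fun g =>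
    if h : g.1 0 1 = 0 then Sum.inr (⟨g.1 0 0, by
      have := (hd g).2
      rwa [h, zero_mul, sub_zero, (hd g).1] at this⟩, g.1 1 0)
    else Sum.inl (g.1 0 0, Units.mk0 _ h)
  have hf : Function.Injective f := fun x y e => by
    have k : x.1 0 0 = y.1 0 0 → x.1 0 1 = y.1 0 1 → x.1 1 0 = y.1 1 0 → x = y := fun a b c => by
      refine Subtype.ext (Matrix.SpecialLinearGroup.ext x.1 y.1 fun i j => ?_)
      fin_cases i <;> fin_cases j
      exacts [a, b, c, (hd x).1.trans ((congrArg (τ - ·) a).trans (hd y).1.symm)]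
    by_cases hx : x.1 0 1 = 0 <;> by_cases hy : y.1 0 1 = 0 <;> simp only [f, hx, hy, dite_true, dite_false] at e
    · simp only [Sum.inr.injEq, Prod.mk.injEq, Subtype.mk.injEq] at e
      exact k e.1 (hx.trans hy.symm) e.2
    · cases e
    · cases e
    · simp only [Sum.inl.injEq, Prod.mk.injEq, Units.mk0_inj] at e
      refine k e.1 e.2 (mul_left_cancel₀ hy ?_)
      have a1 := hd x
      have a2 := hd y
      rw [a1.1, e.1, e.2] at a1
      rw [a2.1] at a2
      linear_combination a2.2 - a1.2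
  refine (Nat.card_le_card_of_injective f hf).trans ?_
  rw [Nat.card_sum, Nat.card_prod, Nat.card_prod, Nat.card_units, Nat.card_eq_fintype_card (α := F)]
  obtain ⟨n, hn⟩ : ∃ n, Fintype.card F = n + 1 := ⟨_, (Nat.succ_pred_eq_of_pos Fintype.card_pos).symm⟩
  have := Nat.mul_le_mul_right (n + 1) h2
  rw [hn, Nat.add_sub_cancel]
  nlinarith

theorem card_tr_mem_le (T : Finset F) :
    Nat.card {g : SL(2, F) // tr g ∈ T} ≤ T.card * (Fintype.card F ^ 2 + Fintype.card F) := by
  classical
  have : Fintype SL(2, F) := Fintype.ofFinite _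
  rw [Nat.card_eq_fintype_card, Fintype.card_subtype, mul_comm]
  refine Finset.card_le_mul_card_image_of_maps_to (f := tr) (fun g hg => (Finset.mem_filter.1 hg).2) _ fun τ _ => ?_
  refine le_trans ?_ (card_tr_le τ)
  rw [Nat.card_eq_fintype_card, Fintype.card_subtype]
  exact Finset.card_le_card fun g hg => Finset.mem_filter.2 ⟨Finset.mem_univ _, (Finset.mem_filter.1 hg).2⟩

theorem xc_psl_le_sl {t : ℕ} (ht : Odd t) : xc PSL(2, F) t ≤ xc SL(2, F) t := by
  refine Nat.card_le_card_of_surjective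
    (fun g : {g : SL(2, F) // g ^ t = 1} => (⟨(g.1 : PSL(2, F)), psl_pow_eq_one_iff.2 (Or.inl g.2)⟩ :
      {x : PSL(2, F) // x ^ t = 1})) fun x => ?_
  obtain ⟨x, hx⟩ := x
  obtain ⟨g, rfl⟩ := QuotientGroup.mk_surjective x
  rcases psl_pow_eq_one_iff.1 hx with h | h
  · exact ⟨⟨g, h⟩, rfl⟩
  · exact ⟨⟨-g, by rw [ht.neg_pow, h, neg_neg]⟩, Subtype.ext (psl_mk_neg g)⟩

/-- The bound for `PSL₂(q)`, `q` odd. -/
theorem xc_psl_le (p : ℕ) [hp : Fact p.Prime] [CharP F p] (h2 : (2 : F) ≠ 0) {t a b δ : ℕ} (ht : Odd t)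
    (ha : Nat.gcd t (Fintype.card F + 1) = 2 * a + 1) (hb : Nat.gcd t (Fintype.card F - 1) = 2 * b + 1)
    (hδ : p ∣ t → δ = 1) : xc PSL(2, F) t ≤ 1 + (a + b + δ) * (Fintype.card F ^ 2 + Fintype.card F) := by
  classical
  obtain ⟨A, hA, kA⟩ := exists_traces (F := F) a
  obtain ⟨B, hB, kB⟩ := exists_traces (F := F) b
  let T : Finset F := A ∪ B ∪ (if p ∣ t then {2} else ∅)
  have hT : T.card ≤ a + b + δ := by
    refine (Finset.card_union_le _ _).trans (add_le_add ((Finset.card_union_le _ _).trans (add_le_add hA hB)) ?_)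
    split_ifs with h
    · simp [hδ h]
    · simp
  have key : ∀ g : SL(2, F), g ^ t = 1 → g ≠ 1 → tr g ∈ T := fun g hg h1 => by
    by_cases h : tr g = 2
    · have h3 := pow_gcd_eq_one.2 ⟨(tr_eq_two_iff p g).1 h, hg⟩
      have h4 : p ∣ t := by
        by_contra h5
        rw [(hp.out.coprime_iff_not_dvd.2 h5).gcd_eq_one, pow_one] at h3
        exact h1 h3
      simp [T, h4, h]
    rcases sl_pow_cases p g with h3 | h3 | h3 | h3
    · have h4 := pow_gcd_eq_one.2 ⟨hg, h3⟩
      rw [ha] at h4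
      simp [T, (kA g h4).resolve_left h]
    · have h4 := pow_gcd_eq_one.2 ⟨hg, h3⟩
      rw [hb] at h4
      simp [T, (kB g h4).resolve_left h]
    · exact absurd ((tr_eq_two_iff p g).2 h3) h
    · have h4 : (g ^ p) ^ t = 1 := by rw [← pow_mul, mul_comm, pow_mul, hg, one_pow]
      rw [h3, ht.neg_one_pow] at h4
      have h5 : ((-1 : SL(2, F)) 0 0) = (1 : SL(2, F)) 0 0 := by rw [h4]
      exact absurd (by simp at h5; linear_combination -h5) h2
  refine (xc_psl_le_sl ht).trans (le_trans ?_ (Nat.add_le_add_left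
    ((card_tr_mem_le T).trans (Nat.mul_le_mul_right _ hT)) 1))
  let f : {g : SL(2, F) // g ^ t = 1} → Unit ⊕ {g : SL(2, F) // tr g ∈ T} := fun g =>
    if h : g.1 = 1 then Sum.inl () else Sum.inr ⟨g.1, key g.1 g.2 h⟩
  refine (Nat.card_le_card_of_injective f fun x y e => ?_).trans (by rw [Nat.card_sum]; simp)
  by_cases hx : x.1 = 1 <;> by_cases hy : y.1 = 1 <;> simp only [f, hx, hy, dite_true, dite_false] at e
  · exact Subtype.ext (hx.trans hy.symm)
  · cases e
  · cases e
  · exact Subtype.ext (congrArg (fun z : {g : SL(2, F) // tr g ∈ T} => z.1) (Sum.inr.inj e))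

end CL.TBW.Nse
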